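import Mathlib
import Cfsg.Agent.Lib.MSub.Base
import Cfsg.Agent.Lib.MOrb.Sext
import Cfsg.Agent.Lib.MOrb.Oct

/-!
Overgroups of the Sylow 2-subgroups of `M23` and `M24`; subgroups of order divisible by 77.
-/

set_option autoImplicit false

namespace CfsgLib.MSub

open Cfsg CfsgLib.M24E CfsgLib.Golay Subgroup MulAction
open scoped Pointwise

/-- a Sylow 2-subgroup of `M24` -/
noncomputable def T : Subgroup M24 := stabilizer M24 (ofMask 5279) ⊓
  (stabilizer M24 (fam [3, 12, 144, 5120]) ⊓ stabilizer M24 (fam [15, 5264]))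

noncomputable def inT (φ : ℕ → ℕ) : Bool :=
  and (setTo φ 5279 5279) (and (famTo φ [3, 12, 144, 5120] [3, 12, 144, 5120]) (famTo φ [15, 5264] [15, 5264]))

theorem inT_iff {g : P24} {φ : ℕ → ℕ} (h : Rp φ g) : inT φ = true ↔ g • ofMask 5279 = ofMask 5279 ∧
    g • fam [3, 12, 144, 5120] = fam [3, 12, 144, 5120] ∧ g • fam [15, 5264] = fam [15, 5264] := by
  rw [inT, Bool.and_eq_true, Bool.and_eq_true, h.setFix_iff, h.famFix_iff (by decide), h.famFix_iff (by decide)]

theorem pT : IsPGroup 2 T := IsPGroup.of_card (n := 10) (by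
  rw [card_subgroup_eq T (P := fun g => g • ofMask 5279 = ofMask 5279 ∧ g • fam [3, 12, 144, 5120] =
    fam [3, 12, 144, 5120] ∧ g • fam [15, 5264] = fam [15, 5264]) fun _ => Iff.rfl, card_of_search chkB_id
    ((sound_okS (chkB_lt chkB_id) fun _ _ h => h.1).and ((sound_okP (chkB_lt chkB_id) fun _ _ h => h.2.1).and
      (sound_okP (chkB_lt chkB_id) fun _ _ h => h.2.2))) (t := pk inT) fun g _ φ hφ => by
        rw [pk_eq]; exact inT_iff hφ.mk]
  decide +kernel)

theorem cover {K : Subgroup M24} {gens : List ℕ} (hg : ∀ q ∈ gens, ∃ h : isM q = true, el q h ∈ K) {x m : ℕ}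
    (hx : x < 24) (h : ptCover gens x m = true) : ofMask m ⊆ orb K (pt x) := fun p hp => by
  obtain ⟨_, -, ⟨k, hk, rfl⟩, e⟩ := ptCover_spec (K.map M24.subtype)
    (fun q hq => (hg q hq).elim fun h1 h2 => ⟨h1, _, h2, rfl⟩) hx h p hp
  exact mem_orb.2 ⟨k, hk, e⟩

theorem gT : ∀ q ∈ [0x849662d91773d21a81b11d2623918a, 0x4c6136a0d2a2de4b9dd5516cc08062],
    ∃ h : isM q = true, el q h ∈ T := fun q hq => by
  have h : isM q = true ∧ inT (ap q) = true := by revert q; decide +kernel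
  exact ⟨h.1, (inT_iff (pm_rp h.1)).1 h.2⟩

theorem gT0 : ∀ q ∈ [0xade704a256335e7710ab5468c10c20, 0x6c50f34e8b4d607291d655e4c10c20],
    ∃ h : isM q = true, el q h ∈ T ⊓ stabilizer M24 (pt 0) := fun q hq => by
  have h : isM q = true ∧ inT (ap q) = true ∧ ap q 0 = 0 := by revert q; decide +kernel
  exact ⟨h.1, (inT_iff (pm_rp h.1)).1 h.2.1, ((pm_rp h.1).pt_eq_iff (by norm_num) (by norm_num)).2 h.2.2⟩

theorem orb_trans {K : Subgroup M24} {a b c : GolayPt} (h1 : b ∈ orb K a) (h2 : c ∈ orb K b) : c ∈ orb K a := by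
  obtain ⟨g, hg, rfl⟩ := mem_orb.1 h1
  obtain ⟨k, hk, rfl⟩ := mem_orb.1 h2
  exact mem_orb.2 ⟨k * g, mul_mem hk hg, mul_smul ..⟩

theorem orb_symm {K : Subgroup M24} {a b : GolayPt} (h : b ∈ orb K a) : a ∈ orb K b := by
  obtain ⟨g, hg, rfl⟩ := mem_orb.1 h
  exact mem_orb.2 ⟨g⁻¹, inv_mem hg, inv_smul_smul ..⟩

theorem orb_mono {K L : Subgroup M24} (h : K ≤ L) (a : GolayPt) : orb K a ⊆ orb L a := fun _ hb =>
  mem_orb.2 ((mem_orb.1 hb).imp fun _ h' => ⟨h h'.1, h'.2⟩)

theorem out_oct {p : GolayPt} (h : p ∉ ofMask 5279) : p ∈ ofMask 16771936 := by revert p; decide +kernel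

theorem eq_mask {Z : Finset GolayPt} (hZ : Z ⊆ ofMask 15) {m : ℕ} (hm : ofMask m ⊆ ofMask 15)
    (h : ∀ i < 4, pt i ∈ Z ↔ m.testBit i = true) : Z = ofMask m := by
  ext p
  by_cases hp : p ∈ ofMask 15
  · have : ∀ p ∈ ofMask 15, ix p < 4 := by decide +kernel
    rw [mem_ofMask, ← h _ (this p hp), pt_ix]
  · exact iff_of_false (fun h => hp (hZ h)) fun h => hp (hm h)

theorem lemA {K : Subgroup M24} (h0 : K ≤ stabilizer M24 (pt 0)) (hT : T ⊓ stabilizer M24 (pt 0) ≤ K) :
    K ≤ stabilizer M24 (ofMask 5279) ∨ K ≤ stabilizer M24 (ofMask 15) ∨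
      (K ≤ stabilizer M24 (ofMask 12) ∧ 7 ∣ Nat.card K) ∨ 11 ∣ Nat.card K ∨ 23 ∣ Nat.card K := by
  have g0 := fun q hq => (gT0 q hq).imp fun _ h => hT h
  have c4 := cover g0 (x := 4) (m := 5264) (by norm_num) (by decide +kernel)
  have c5 := cover g0 (x := 5) (m := 16771936) (by norm_num) (by decide +kernel)
  have c2 : pt 3 ∈ orb K (pt 2) := cover g0 (x := 2) (m := 12) (by norm_num) (by decide +kernel) (by decide +kernel)
  by_cases h5 : pt 5 ∈ orb K (pt 4)
  swap
  · refine Or.inl fun g hg => (octad_eq_of_five_le oct0_mem (smul_mem_octads g.2 oct0_mem) ?_).symm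
    have h1 : g • ofMask 5265 ⊆ ofMask 5279 ∩ g • ofMask 5279 := by
      refine Finset.subset_inter ?_ (Finset.smul_finset_subset_smul_finset (ofMask_subset (by decide)))
      intro _ hp'
      obtain ⟨p, hp, rfl⟩ := Finset.mem_smul_finset.1 hp'
      rcases (by decide +kernel : ∀ p ∈ ofMask 5265, p = pt 0 ∨ p ∈ ofMask 5264) p hp with rfl | hp
      · rw [h0 hg]; decide +kernel
      · exact by_contra fun h => h5 (orb_trans (orb_trans (c4 hp) (mem_orb.2 ⟨g, hg, rfl⟩)) (orb_symm (c5 (out_oct h))))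
    exact le_trans (by rw [Finset.card_smul_finset]; decide +kernel) (Finset.card_le_card h1)
  have hZ : (orb K (pt 4))ᶜ ⊆ ofMask 15 := fun p hp => by_contra fun h => Finset.mem_compl.1 hp (by
    rcases (by decide +kernel : ∀ p, p ∉ ofMask 15 → p ∈ ofMask 5264 ∨ p ∈ ofMask 16771936) p h with h | h
    exacts [c4 h, orb_trans h5 (c5 h)])
  have z0 : pt 0 ∉ orb K (pt 4) := fun h => by
    obtain ⟨g, hg, e⟩ := mem_orb.1 (orb_symm h)
    rw [h0 hg] at e
    exact absurd e (by decide)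
  have z3 : pt 3 ∈ orb K (pt 4) ↔ pt 2 ∈ orb K (pt 4) := ⟨fun h => orb_trans h (orb_symm c2), fun h => orb_trans h c2⟩
  have key : ∀ m < 16, m.testBit 0 = true → m.testBit 3 = m.testBit 2 → (pt 1 ∉ orb K (pt 4) ↔ m.testBit 1 = true) →
      (pt 2 ∉ orb K (pt 4) ↔ m.testBit 2 = true) →
      K ≤ stabilizer M24 (ofMask m) ∧ 24 - (ofMask m).card ∣ Nat.card K := fun m hm a0 a3 a1 a2 => by
    have e := eq_mask hZ (m := m) (ofMask_subset (by clear a1 a2 a0 a3; revert m; decide)) fun i hi => by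
      interval_cases i <;> simp [*]
    refine ⟨fun g hg => ?_, ?_⟩
    · rw [mem_stabilizer_iff, ← e]
      exact (smul_compl' ..).trans (congrArg _ (smul_orb hg _))
    · rw [← e, ← card_golayPt, ← Finset.card_compl, compl_compl]
      exact Dvd.intro _ (card_orb K _)
  by_cases a1 : pt 1 ∈ orb K (pt 4) <;> by_cases a2 : pt 2 ∈ orb K (pt 4)
  · exact Or.inr (Or.inr (Or.inr (Or.inr (key 1 (by decide) rfl rfl (iff_of_false (not_not.2 a1) (by decide))
      (iff_of_false (not_not.2 a2) (by decide))).2)))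
  · obtain ⟨h1, h2⟩ := key 13 (by decide) rfl rfl (iff_of_false (not_not.2 a1) (by decide)) (iff_of_true a2 rfl)
    refine Or.inr (Or.inr (Or.inl ⟨fun g hg => ?_, Dvd.dvd.trans (by decide +kernel) h2⟩))
    have e : ofMask 12 = ofMask 13 \ {pt 0} := by decide +kernel
    rw [mem_stabilizer_iff, e, Finset.smul_finset_sdiff, h1 hg, Finset.smul_finset_singleton, h0 hg]
  · exact Or.inr (Or.inr (Or.inr (Or.inl (Dvd.dvd.trans (by decide +kernel)
      (key 3 (by decide) rfl rfl (iff_of_true a1 rfl) (iff_of_false (not_not.2 a2) (by decide))).2))))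
  · exact Or.inr (Or.inl (key 15 (by decide) rfl rfl (iff_of_true a1 rfl) (iff_of_true a2 rfl)).1)

theorem cT0 : ofMask 5279 ⊆ orb T (pt 0) := cover gT (by norm_num) (by decide +kernel)

theorem orbT {L : Subgroup M24} (hT : T ≤ L) : L ≤ stabilizer M24 (ofMask 5279) ∨ ∀ p, p ∈ orb L (pt 0) := by
  have c0 := cT0.trans (orb_mono hT _)
  have c5 := (cover gT (x := 5) (m := 16771936) (by norm_num) (by decide +kernel)).trans (orb_mono hT _)
  by_cases h5 : pt 5 ∈ orb L (pt 0)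
  · exact Or.inr fun p => by_contra fun h => h (orb_trans h5 (c5 (out_oct fun h' => h (c0 h'))))
  · refine Or.inl fun g hg => ?_
    rw [mem_stabilizer_iff, c0.antisymm fun p hp => by_contra fun h => h5 (orb_trans hp (orb_symm (c5 (out_oct h))))]
    exact smul_orb hg _

theorem card_tr {H : Subgroup M24} {a : GolayPt} (h : ∀ p, p ∈ orb H a) :
    24 * Nat.card (H ⊓ stabilizer M24 a : Subgroup M24) = Nat.card H := by
  rw [← card_orb H a, Finset.eq_univ_iff_forall.2 h, Finset.card_univ, card_golayPt]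

theorem notO {H : Subgroup M24} (hT : T ≤ H) (h : ∀ p, p ∈ orb H (pt 0)) (h5 : 5 ∣ Nat.card H) :
    ¬ H ⊓ stabilizer M24 (pt 0) ≤ stabilizer M24 (ofMask 5279) := fun hK => by
  have blk : ∀ a ∈ H, ∀ b ∈ H, a • ofMask 5279 ≠ b • ofMask 5279 → Disjoint (a • ofMask 5279) (b • ofMask 5279) :=
    fun a ha b hb hne => Finset.disjoint_left.2 fun p h1 h2 => hne (by
      obtain ⟨u, hu, rfl⟩ := Finset.mem_smul_finset.1 h1
      obtain ⟨v, hv, e⟩ := Finset.mem_smul_finset.1 h2
      obtain ⟨s, hs, rfl⟩ := mem_orb.1 (cT0 hu)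
      obtain ⟨t, ht, rfl⟩ := mem_orb.1 (cT0 hv)
      have := hK (x := (a * s)⁻¹ * (b * t)) (mem_inf.2
        ⟨mul_mem (inv_mem (mul_mem ha (hT hs))) (mul_mem hb (hT ht)), by
          rw [mem_stabilizer_iff, mul_smul, inv_smul_eq_iff, mul_smul, mul_smul, e]⟩)
      rw [mem_stabilizer_iff, mul_smul, inv_smul_eq_iff, mul_smul, mul_smul, hs.1, ht.1] at this
      exact this.symm)
  obtain ⟨x, hxK, hx⟩ := exists_ord (H ⊓ stabilizer M24 (pt 0)) Nat.prime_five
    ((Nat.Coprime.dvd_mul_left (by norm_num)).1 (card_tr h ▸ h5))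
  have x0 : x • ofMask 5279 = ofMask 5279 := hK hxK
  obtain ⟨k, hk, e⟩ := mem_orb.1 (h (pt 5))
  have c8 : ∀ a : M24, (a • ofMask 5279).card = 8 := fun a => (Finset.card_smul_finset ..).trans oct0_mem.2
  have n0 : ofMask 5279 ≠ k • ofMask 5279 := fun h' => absurd (show pt 5 ∈ ofMask 5279 by
    rw [h', ← e]; exact Finset.smul_mem_smul_finset (by decide +kernel)) (by decide +kernel)
  have dd : ∀ a ∈ H, ofMask 5279 ≠ a • ofMask 5279 → Disjoint (ofMask 5279) (a • ofMask 5279) := fun a ha h => by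
    simpa using blk 1 H.one_mem a ha (by simpa)
  have d0 := dd k hk n0
  have x1 : x • k • ofMask 5279 = k • ofMask 5279 := by_contra fun h1 => by
    have h2 : x • x • k • ofMask 5279 ≠ k • ofMask 5279 := fun h2 => h1 (by
      have : x • x • x • x • x • x • k • ofMask 5279 = x • x ^ 5 • k • ofMask 5279 := by
        simp only [pow_succ, pow_zero, one_mul, mul_smul]
      rw [h2, h2, h2, ← hx, pow_orderOf_eq_one, one_smul] at this
      exact this.symm)
    have hk1 := mul_mem hxK.1 hk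
    have hk2 := mul_mem hxK.1 hk1
    have d1 := dd _ hk1 fun h => n0 (smul_left_cancel x (by rw [x0, ← mul_smul, ← h]))
    have d2 := dd _ hk2 fun h => n0 (smul_left_cancel x (smul_left_cancel x (by
      rw [x0, x0, ← mul_smul x k, ← mul_smul, ← h])))
    have d3 := blk _ hk _ hk1 (by rw [mul_smul]; exact Ne.symm h1)
    have d4 := blk _ hk _ hk2 (by rw [mul_smul, mul_smul]; exact Ne.symm h2)
    have d5 := blk _ hk1 _ hk2 (by rw [mul_smul, mul_smul, mul_smul]; exact fun h => h1 (smul_left_cancel x h).symm)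
    have := Finset.card_le_univ (ofMask 5279 ∪ (k • ofMask 5279 ∪ ((x * k) • ofMask 5279 ∪ (x * (x * k)) • ofMask 5279)))
    rw [Finset.card_union_of_disjoint (by simp [d0, d1, d2]), Finset.card_union_of_disjoint (by simp [d3, d4]),
      Finset.card_union_of_disjoint d5, c8, c8, c8, oct0_mem.2, card_golayPt] at this
    omega
  have m1 := card_mod Nat.prime_five hx x0
  have m2 := card_mod Nat.prime_five hx x1
  have := Finset.card_le_card (Finset.union_subset (Finset.inter_subset_right (s₁ := ofMask 5279) (s₂ := fixS x))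
    (Finset.inter_subset_right (s₁ := k • ofMask 5279)))
  rw [Finset.card_union_of_disjoint (d0.mono Finset.inter_subset_left Finset.inter_subset_left), fix5 hx] at this
  rw [c8] at m2
  rw [oct0_mem.2] at m1
  unfold Nat.ModEq at m1 m2
  omega

theorem lemB {H : Subgroup M24} (hT : T ≤ H) (h5 : 5 ∣ Nat.card H) (h11 : ¬ 11 ∣ Nat.card H)
    (h23 : ¬ 23 ∣ Nat.card H) : H ≤ stabilizer M24 (ofMask 5279) ∨ H ≤ stabilizer M24 (MOrb.sext (ofMask 15)) := by
  refine (orbT hT).imp_right fun h => ?_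
  have hd := card_dvd_of_le (inf_le_left : H ⊓ stabilizer M24 (pt 0) ≤ H)
  rcases lemA inf_le_right (inf_le_inf_right _ hT) with h1 | h1 | ⟨h1, h7⟩ | h1 | h1
  · exact absurd h1 (notO hT h h5)
  · have h2 : H ⊓ stabilizer M24 (pt 0) ≤ H ⊓ stabilizer M24 (MOrb.sext (ofMask 15)) :=
      le_inf inf_le_left fun g hg => by rw [mem_stabilizer_iff, MOrb.smul_sext, h1 hg]
    have h4 : (ofMask 15).card = 4 := by decide +kernel
    have h3 : T ≤ H ⊓ stabilizer M24 (MOrb.sext (ofMask 15)) := le_inf hT fun t ht => by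
      rw [mem_stabilizer_iff, MOrb.smul_sext]
      obtain ⟨m, hm, e⟩ := mem_fam.1 (ht.2.2.le (Finset.smul_mem_smul_finset (ofMask_mem_fam List.mem_cons_self)))
      refine (MOrb.eq_sext (MOrb.sext_mem h4) (e ▸ ?_)).symm
      simp only [List.mem_cons, List.not_mem_nil, or_false] at hm
      rcases hm with rfl | rfl
      · exact MOrb.self_mem_sext h4
      · exact MOrb.mem_sext.2 ⟨by decide +kernel, ofMask_xor 15 5264 ▸ oct0_mem.1⟩
    rcases orbT h3 with h6 | h6
    · exact absurd (h2.trans h6) (notO hT h h5)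
    · intro g hg
      obtain ⟨l, hl, e⟩ := mem_orb.1 (h6 (g • pt 0))
      rw [mem_inf] at hl
      simpa using mul_mem hl.2 (mem_inf.1 (h2 (x := l⁻¹ * g) (mem_inf.2 ⟨mul_mem (inv_mem hl.1) hg, by
        rw [mem_stabilizer_iff, mul_smul, ← e, inv_smul_smul]⟩))).2
  · exfalso
    obtain ⟨x, hxK, hx⟩ := exists_ord _ (by norm_num) h7
    have key : ∀ y ∈ H ⊓ stabilizer M24 (pt 0), orderOf y = 7 → y • pt 2 = pt 2 ∧ y • pt 3 = pt 3 := fun y hy ho => by
      have := fix_of_small (by norm_num) ho (h1 hy) (by decide +kernel)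
      exact ⟨mem_fixS.1 (this (by decide +kernel)), mem_fixS.1 (this (by decide +kernel))⟩
    have ht : isM 0xba5b27d2289baac32ad03aca408062 = true := by decide +kernel
    have t0 : el _ ht • pt 0 = pt 2 := ((pm_rp ht).pt_eq_iff (by norm_num) (by norm_num)).2 (by decide +kernel)
    have t2 : el _ ht • pt 2 = pt 0 := ((pm_rp ht).pt_eq_iff (by norm_num) (by norm_num)).2 (by decide +kernel)
    have t3 : el _ ht • pt 3 = pt 1 := ((pm_rp ht).pt_eq_iff (by norm_num) (by norm_num)).2 (by decide +kernel)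
    have h2 : el _ ht ∈ H := hT ((inT_iff (pm_rp ht)).1 (by decide +kernel))
    have h3 := (key ((el _ ht)⁻¹ * x * el _ ht) (mem_inf.2 ⟨mul_mem (mul_mem (inv_mem h2) hxK.1) h2, by
      rw [mem_stabilizer_iff, mul_smul, mul_smul, t0, (key x hxK hx).1, ← t0, inv_smul_smul]⟩)
      (by rw [← hx]; exact (MulAut.conj (el _ ht)⁻¹).orderOf_eq x ▸ by simp)).2
    rw [mul_smul, mul_smul, t3, inv_smul_eq_iff, t3] at h3
    have := Finset.card_le_card (show {pt 0, pt 1, pt 2, pt 3} ⊆ fixS x by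
      simp only [Finset.insert_subset_iff, Finset.singleton_subset_iff, mem_fixS]
      exact ⟨hxK.2, h3, key x hxK hx⟩)
    rw [fix7 hx] at this
    exact absurd this (by decide +kernel)
  exacts [absurd (h1.trans hd) h11, absurd (h1.trans hd) h23]

/-! ### order divisible by 77 -/

theorem duad_of_not_tr {K : Subgroup M24} (h7 : 7 ∣ Nat.card K) (h11 : 11 ∣ Nat.card K) (h23 : ¬ 23 ∣ Nat.card K)
    {a : GolayPt} (h : ¬ ∀ p, p ∈ orb K a) : ∃ s : Finset GolayPt, s.card = 2 ∧ K ≤ stabilizer M24 s ∧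
      ∀ b, K ≤ stabilizer M24 b → b ∈ s := by
  obtain ⟨x, hxK, hx⟩ := exists_ord _ (by norm_num) h7
  obtain ⟨y, hyK, hy⟩ := exists_ord _ (by norm_num) h11
  obtain ⟨p, -, hp⟩ := Finset.exists_mem_notMem_of_card_lt_card (s := fixS y) (t := Finset.univ)
    (by rw [fix11 hy]; decide)
  have hp0 : p ∈ orb K p := mem_orb.2 ⟨1, K.one_mem, one_smul ..⟩
  have h1 := card_mod (by norm_num) hx (smul_orb hxK p)
  have h2 := card_mod (by norm_num) hy (smul_orb hyK p)
  have h3 := (Finset.card_le_card (Finset.inter_subset_right (s₁ := orb K p))).trans (fix7 hx).le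
  have h4 := (Finset.card_le_card (Finset.inter_subset_right (s₁ := orb K p))).trans (fix11 hy).le
  have h5 : ¬ (orb K p).card < 11 := fun h => hp (fix_of_small (by norm_num) hy (smul_orb hyK p) h hp0)
  have h6 : (orb K p).card ≠ 23 := fun h => h23 (h ▸ Dvd.intro _ (card_orb K p))
  obtain ⟨q, hq⟩ := not_forall.1 fun h' : ∀ q, q ∈ orb K p => h fun q => orb_trans (orb_symm (h' a)) (h' q)
  have h8 : (orb K p).card < 24 := card_golayPt ▸ Finset.card_lt_univ_of_notMem hq
  unfold Nat.ModEq at h1 h2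
  refine ⟨(orb K p)ᶜ, by rw [Finset.card_compl, card_golayPt]; omega,
    fun g hg => (smul_compl' ..).trans (congrArg _ (smul_orb hg _)), fun b hb => Finset.mem_compl.2 fun h => ?_⟩
  obtain ⟨g, hg, rfl⟩ := mem_orb.1 (orb_symm h)
  exact hp (mem_fixS.2 (by rw [hb hg]; exact hb hyK))

theorem lem77 {K : Subgroup M24} (h7 : 7 ∣ Nat.card K) (h11 : 11 ∣ Nat.card K) (h23 : ¬ 23 ∣ Nat.card K) :
    ∃ s : Finset GolayPt, s.card = 2 ∧ K ≤ stabilizer M24 s := by
  by_cases h : ∀ p, p ∈ orb K (pt 0)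
  swap
  · exact (duad_of_not_tr h7 h11 h23 h).imp fun _ h => ⟨h.1, h.2.1⟩
  exfalso
  have c := fun a => card_tr (a := a) fun p => orb_trans (orb_symm (h a)) (h p)
  have c7 := fun a => (Nat.Coprime.dvd_mul_left (by norm_num)).1 (c a ▸ h7)
  have c11 := fun a => (Nat.Coprime.dvd_mul_left (by norm_num)).1 (c a ▸ h11)
  have : ∀ a, ∃ b, b ≠ a ∧ K ⊓ stabilizer M24 a ≤ stabilizer M24 b := fun a => by
    obtain ⟨s, h1, h2, h3⟩ := duad_of_not_tr (c7 a) (c11 a) (fun h => h23 (h.trans (card_dvd_of_le inf_le_left)))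
      (a := a) fun h => by
        obtain ⟨b, hb⟩ := exists_ne a
        obtain ⟨g, hg, rfl⟩ := mem_orb.1 (h b)
        exact hb hg.2
    obtain ⟨b, hb, rfl⟩ : ∃ b, b ≠ a ∧ s = {a, b} := by
      obtain ⟨u, v, huv, rfl⟩ := Finset.card_eq_two.1 h1
      rcases Finset.mem_insert.1 (h3 a inf_le_right) with rfl | h
      · exact ⟨v, huv.symm, rfl⟩
      · exact ⟨u, Finset.mem_singleton.1 h ▸ huv, Finset.mem_singleton.1 h ▸ Finset.pair_comm ..⟩
    refine ⟨b, hb, fun g hg => ?_⟩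
    rcases Finset.mem_insert.1 ((h2 hg).le (Finset.smul_mem_smul_finset (a := g) (show b ∈ ({a, b} : Finset _) by simp)))
      with e | e
    · exact absurd (smul_left_cancel g (e.trans (Eq.symm hg.2))) hb
    · exact Finset.mem_singleton.1 e
  choose σ h1 h2 using this
  have h3 : ∀ a, σ (σ a) = a := fun a => by
    obtain ⟨z, hzK, hz⟩ := exists_ord _ (by norm_num) (c11 a)
    have e : {a, σ a} = fixS z := Finset.eq_of_subset_of_card_le
      (Finset.insert_subset (mem_fixS.2 hzK.2) (Finset.singleton_subset_iff.2 (mem_fixS.2 (h2 a hzK))))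
      (by rw [fix11 hz, Finset.card_pair (h1 a).symm])
    exact (Finset.mem_insert.1 (e.ge (mem_fixS.2 (h2 _ ⟨hzK.1, h2 a hzK⟩)))).resolve_right
      fun h => h1 _ (Finset.mem_singleton.1 h)
  obtain ⟨x, hxK, hx⟩ := exists_ord _ (by norm_num) h7
  obtain ⟨a, b, d, hab, had, hbd, e⟩ := Finset.card_eq_three.1 (fix7 hx)
  have h4 : ∀ p ∈ ({a, b, d} : Finset _), σ p ∈ ({a, b, d} : Finset _) := fun p hp =>
    e.le (mem_fixS.2 (h2 p ⟨hxK, mem_fixS.1 (e.ge hp)⟩))
  simp only [Finset.mem_insert, Finset.mem_singleton, forall_eq_or_imp, forall_eq, h1, false_or, or_false] at h4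
  grind

end CfsgLib.MSub
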