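import Mathlib
import Cfsg.Agent.Lib.MSub.Odd
import Cfsg.Agent.S0376

/-!
Subgroups of index 759, 276, 1771, 253 of `M24` and of index 253 of `M23`.
-/

set_option autoImplicit false

namespace CfsgLib.MSub

open Cfsg CfsgLib.M24E CfsgLib.Golay Subgroup MulAction
open scoped Pointwise

theorem le_stab_of_map {X : Type*} [MulAction M24 X] {K : Subgroup M24} {c : M24} {a : X}
    (h : K.map (MulAut.conj c).toMonoidHom ≤ stabilizer M24 a) : K ≤ stabilizer M24 (c⁻¹ • a) := fun k hk => by
  have : (c * k * c⁻¹) • a = a := h (mem_map_of_mem _ hk)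
  rwa [mul_smul, mul_smul, smul_eq_iff_eq_inv_smul] at this

theorem odd_case {H : Subgroup M24} (h : Odd H.index) (h5 : 5 ∣ Nat.card H) (h11 : ¬ 11 ∣ Nat.card H)
    (h23 : ¬ 23 ∣ Nat.card H) : (∃ o ∈ octads, H ≤ stabilizer M24 o) ∨ ∃ S ∈ sextets, H ≤ stabilizer M24 S := by
  obtain ⟨g, hg⟩ := exists_conj_le h pT
  rw [← card_map_of_injective (f := (MulAut.conj g).toMonoidHom) (MulAut.conj g).injective] at h5 h11 h23
  exact (lemB (H := H.map (MulAut.conj g).toMonoidHom) (fun t ht => ⟨_, hg t ht, by simp [mul_assoc]⟩) h5 h11 h23).imp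
    (fun h => ⟨_, smul_mem_octads g⁻¹.2 oct0_mem, le_stab_of_map h⟩)
    fun h => ⟨_, MOrb.smul_mem_sextets _ (MOrb.sext_mem (by decide +kernel)), le_stab_of_map h⟩

theorem card_stab_sext {S : Finset (Finset GolayPt)} (hS : S ∈ sextets) : Nat.card (stabilizer M24 S) = 138240 := by
  obtain ⟨g, rfl⟩ := MOrb.trans_sext hS
  have := (stabilizer M24 (g • MOrb.fam 6 MOrb.S0)).index_mul_card
  rw [index_stabilizer, orbit_smul, MOrb.orbit_S0, MOrb.ncard_sextets, card_M24] at this
  omega

theorem card_stab_duad {s : Finset GolayPt} (hs : s.card = 2) : Nat.card (stabilizer M24 s) = 887040 := by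
  have := (stabilizer M24 s).index_mul_card
  have e : orbit M24 s = ↑(Finset.powersetCard 2 (Finset.univ : Finset GolayPt)) := by
    ext t
    simp only [Finset.mem_coe, Finset.mem_powersetCard, Finset.subset_univ, true_and]
    refine ⟨?_, fun ht => ?_⟩
    · rintro ⟨g, rfl⟩; exact (Finset.card_smul_finset ..).trans hs
    · obtain ⟨g, hg, e⟩ := Mathieu.set_trans24 (hs.trans ht.symm) (by omega)
      exact ⟨⟨g, hg⟩, e⟩
  rw [index_stabilizer, e, Set.ncard_coe_finset, Finset.card_powersetCard, Finset.card_univ, card_golayPt, card_M24,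
    show Nat.choose 24 2 = 276 by decide] at this
  omega

theorem idx24 : (∀ H : Subgroup M24, H.index = 759 → ∃ o ∈ octads, H = stabilizer M24 o) ∧
    (∀ H : Subgroup M24, H.index = 276 → ∃ s : Finset GolayPt, s.card = 2 ∧ H = stabilizer M24 s) ∧
    (∀ H : Subgroup M24, H.index = 1771 → ∃ S ∈ sextets, H = stabilizer M24 S) ∧ ∀ H : Subgroup M24, H.index ≠ 253 := by
  refine ⟨fun H h => ?_, fun H h => ?_, fun H h => ?_, fun H h => ?_⟩ <;> have h1 := H.index_mul_card <;>
    rw [h, card_M24] at h1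
  · rcases odd_case (H := H) (h ▸ by decide) (by omega) (by omega) (by omega) with ⟨o, ho, e⟩ | ⟨S, hS, e⟩
    · exact ⟨o, ho, eq_of_le_of_card_ge e (by rw [MOrb.card_stab_oct ho]; omega)⟩
    · have := card_le_of_le e
      rw [card_stab_sext hS] at this; omega
  · obtain ⟨s, hs, e⟩ := lem77 (K := H) (by omega) (by omega) (by omega)
    exact ⟨s, hs, eq_of_le_of_card_ge e (by rw [card_stab_duad hs]; omega)⟩
  · rcases odd_case (H := H) (h ▸ by decide) (by omega) (by omega) (by omega) with ⟨o, ho, e⟩ | ⟨S, hS, e⟩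
    · have := card_dvd_of_le e
      rw [MOrb.card_stab_oct ho, show Nat.card H = 138240 by omega] at this; omega
    · exact ⟨S, hS, eq_of_le_of_card_ge e (by rw [card_stab_sext hS]; omega)⟩
  · rcases odd_case (H := H) (h ▸ by decide) (by omega) (by omega) (by omega) with ⟨o, ho, e⟩ | ⟨S, hS, e⟩
    · have := card_le_of_le e
      rw [MOrb.card_stab_oct ho] at this; omega
    · have := card_le_of_le e
      rw [card_stab_sext hS] at this; omega

theorem idx23 (x : GolayPt) (H : Subgroup (stabilizer M24 x)) (hH : H.index = 253) :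
    (∃ s : Finset GolayPt, s.card = 2 ∧ x ∉ s ∧ H = (stabilizer M24 s).subgroupOf (stabilizer M24 x)) ∨
      ∃ o ∈ octads, x ∈ o ∧ H = (stabilizer M24 o).subgroupOf (stabilizer M24 x) := by
  have h1 := H.index_mul_card
  rw [hH, Agent.S0376.result] at h1
  have fin : ∀ s : Finset GolayPt, H.map (Subgroup.subtype _) ≤ stabilizer M24 s →
      ¬ 11 ∣ Nat.card (stabilizer M24 s ⊓ stabilizer M24 x : Subgroup M24) → ¬ 23 ∣ Nat.card (stabilizer M24 s) →
      H = (stabilizer M24 s).subgroupOf (stabilizer M24 x) := fun s h h11 h23 => by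
    have h2 : H ≤ (stabilizer M24 s).subgroupOf (stabilizer M24 x) := map_le_iff_le_comap.1 h
    have h3 := hH ▸ index_dvd_of_le h2
    have h4 := ((stabilizer M24 s).subgroupOf (stabilizer M24 x)).index_mul_card
    have h5 : ¬ 23 ∣ Nat.card (stabilizer M24 s ⊓ stabilizer M24 x : Subgroup M24) :=
      fun h => h23 (h.trans (card_dvd_of_le inf_le_left))
    rw [← subgroupOf_map_subtype, card_map_of_injective (subtype_injective _)] at h11 h5
    rw [Agent.S0376.result] at h4
    refine eq_of_le_of_card_ge h2 ?_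
    generalize ((stabilizer M24 s).subgroupOf (stabilizer M24 x)).index = k at h3 h4
    rcases (by decide +kernel : ∀ k ∈ Nat.divisors 253, k = 1 ∨ k = 11 ∨ k = 23 ∨ k = 253) k
      (Nat.mem_divisors.2 ⟨h3, by norm_num⟩) with rfl | rfl | rfl | rfl <;> omega
  obtain ⟨k, hk, e⟩ := list_trans [pt 0] [x] (by simp) (by simp) (by simp) rfl
  have e' : (⟨k, hk⟩ : M24) • pt 0 = x := by simpa using e
  obtain ⟨g, hg⟩ := exists_conj_le (H := H) (hH ▸ by decide)
    (((pT.to_inf_left (K := stabilizer M24 (pt 0))).map (MulAut.conj (⟨k, hk⟩ : M24)).toMonoidHom).comap_subtype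
      (K := stabilizer M24 x))
  set c : M24 := (⟨k, hk⟩ : M24)⁻¹ * g
  have hc : c⁻¹ • pt 0 = x := by rw [mul_inv_rev, inv_inv, mul_smul, e']; exact g⁻¹.2
  have hK : Nat.card ((H.map (Subgroup.subtype _)).map (MulAut.conj c).toMonoidHom) = 40320 := by
    rw [card_map_of_injective (MulAut.conj c).injective, card_map_of_injective (subtype_injective _)]; omega
  rcases lemA (K := (H.map (Subgroup.subtype _)).map (MulAut.conj c).toMonoidHom) (by
      rintro _ ⟨_, ⟨h, -, rfl⟩, rfl⟩
      change (c * h * c⁻¹) • pt 0 = pt 0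
      rw [mul_smul, mul_smul, hc, show (h : M24) • x = x from h.2, ← hc, smul_inv_smul])
    (fun t ht => ⟨_, ⟨_, hg ⟨⟨k, hk⟩ * t * (⟨k, hk⟩ : M24)⁻¹, by
      rw [mem_stabilizer_iff, mul_smul, mul_smul, ← e', inv_smul_smul, ht.2]⟩ (mem_map_of_mem _ ht), rfl⟩, by
        simp [c, mul_assoc]⟩) with h | h | ⟨h, -⟩ | h | h
  · have ho := smul_mem_octads c⁻¹.2 oct0_mem
    refine Or.inr ⟨_, ho, hc ▸ Finset.smul_mem_smul_finset (by decide +kernel), fin _ (le_stab_of_map h)
      (fun h => absurd (h.trans (card_dvd_of_le inf_le_left)) ?_) ?_⟩ <;> erw [MOrb.card_stab_oct ho] <;> norm_num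
  · obtain ⟨y, hy, ho⟩ := exists_ord _ (by norm_num : Nat.Prime 7) (Dvd.dvd.trans (by norm_num) hK.symm.dvd)
    have := Finset.card_le_card (fix_of_small (by norm_num) ho (h hy) (by decide +kernel))
    rw [fix7 ho] at this
    exact absurd this (by decide +kernel)
  · have hs : (c⁻¹ • ofMask 12).card = 2 := (Finset.card_smul_finset ..).trans (by decide +kernel)
    have hx : x ∉ c⁻¹ • ofMask 12 := hc ▸ (Finset.smul_mem_smul_finset_iff _).not.2 (by decide +kernel)
    refine Or.inl ⟨_, hs, hx, fin _ (le_stab_of_map h) (fun h => ?_) (by rw [card_stab_duad hs]; norm_num)⟩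
    obtain ⟨y, hy, ho⟩ := exists_ord _ (by norm_num) h
    have := Finset.card_le_card (Finset.insert_subset (mem_fixS.2 hy.2) (fix_of_small (by norm_num) ho hy.1 (by omega)))
    rw [fix11 ho, Finset.card_insert_of_notMem hx] at this
    omega
  all_goals exact absurd (hK ▸ h) (by norm_num)

end CfsgLib.MSub
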