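import Mathlib
import Cfsg.Agent.Lib.MSub.Odd
import Cfsg.Agent.S0376

/-!
`L₂(23)` is maximal in `M24` and `23:11` is maximal in `M23`.
-/

set_option autoImplicit false

namespace CfsgLib.MSub

open Cfsg CfsgLib.M24E CfsgLib.Golay Subgroup MulAction

/-- scalings of the projective line -/
def mu : (ZMod 23)ˣ →* P24 where
  toFun u := Equiv.optionCongr (Units.mulLeft u)
  map_one' := by ext1 p; cases p <;> simp
  map_mul' u v := by ext1 p; cases p <;> simp [mul_assoc]

def u2 : (ZMod 23)ˣ := ⟨2, 12, rfl, rfl⟩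
def qb : ℕ := 0xbd6717b56939461b52507314831040
def qc : ℕ := 0x5883388a1c8f5140b46cd317aed7

theorem isM_qb : isM qb = true := by decide +kernel
theorem isM_qc : isM qc = true := by decide +kernel
theorem e_a : pm q23 = Equiv.optionCongr (Equiv.addRight (1 : ZMod 23)) := Rp.pm_eq (by unfold Rp; decide +kernel)
theorem e_b : pm qb = mu u2 := Rp.pm_eq (by unfold Rp; decide +kernel)
theorem e_c : pm qc = projInv := Rp.pm_eq (by unfold Rp; decide +kernel)

theorem sq_mem {u : (ZMod 23)ˣ} (h : IsSquare u) : ∃ k : ℕ, mu u = pm qb ^ k := by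
  obtain ⟨r, rfl⟩ := h
  obtain ⟨k, -, e⟩ := (by decide +kernel : ∀ r s : ZMod 23, r * s = 1 → ∃ k < 11, r * r = 2 ^ k) _ _ r.mul_inv
  exact ⟨k, by rw [e_b, ← map_pow, show r * r = u2 ^ k from Units.ext e]⟩

noncomputable abbrev ea : M24 := el q23 isM_q23
noncomputable abbrev eb : M24 := el qb isM_qb
noncomputable abbrev ec : M24 := el qc isM_qc

theorem ord_b : orderOf eb = 11 := ord_el _ (by norm_num) (by decide +kernel) (by decide +kernel)

theorem b_norm : eb ∈ normalizer (zpowers ea : Set M24) := SmallSimple.mem_normalizer_zpowers (by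
  rw [show eb * ea * eb⁻¹ = ea ^ 2 from mul_inv_eq_of_eq_mul (Subtype.ext
    (((pm_rp isM_qb).intw_iff (pm_rp isM_q23) ((pm_rp isM_q23).pow 2)).1 (by decide +kernel)))]
  exact pow_mem (mem_zpowers _) 2)

theorem card_Na : Nat.card (normalizer (zpowers ea : Set M24)) = 253 := by
  obtain ⟨n, e, h1, h2, h3, h4⟩ := norm_form (f := MonoidHom.id M24) Function.injective_id (Or.inr rfl) ord_q23
  have := Nat.le_of_dvd (by norm_num) h2
  rw [card_M24] at h3
  rw [h4]
  interval_cases e <;> omega

theorem card_over {K : Subgroup M24} (ha : ea ∈ K) (hb : eb ∈ K) (h : K ≤ stabilizer M24 (none : GolayPt)) :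
    Nat.card K = 253 ∨ Nat.card K = 10200960 := by
  have o1 : orderOf (⟨ea, ha⟩ : K) = 23 := by rw [← Subgroup.orderOf_coe, ord_q23]
  have o2 : orderOf (⟨eb, hb⟩ : K) = 11 := by rw [← Subgroup.orderOf_coe, ord_b]
  obtain ⟨n, e, h1, -, h3, h4⟩ := norm_form (subtype_injective K) (Or.inr rfl) o1
  obtain ⟨n', e', h1', -, h3', h4'⟩ := norm_form (subtype_injective K) (Or.inl rfl) o2
  obtain ⟨n'', e'', h1'', h2'', h3'', h4''⟩ := norm_form (subtype_injective (stabilizer M24 (none : GolayPt)))
    (Or.inl rfl) (x := ⟨eb, h hb⟩) (by rw [← Subgroup.orderOf_coe, ord_b])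
  have a1 : 23 * e ∣ 253 := h4 ▸ card_Na ▸ card_norm_dvd' (subtype_injective K) ⟨ea, ha⟩
  have a2 : 11 ∣ 23 * e := by
    rw [← h4, ← o2]
    refine Subgroup.orderOf_dvd_natCard _ (SmallSimple.mem_normalizer_zpowers ?_)
    obtain ⟨k, hk⟩ := (mem_normalizer_iff.1 b_norm ea).1 (mem_zpowers _)
    exact ⟨k, Subtype.ext hk⟩
  have a3 : 11 * e' ∣ 11 * e'' := h4' ▸ h4'' ▸ card_norm_dvd' (inclusion_injective h) ⟨eb, hb⟩
  have a4 := card_dvd_of_le h
  rw [Agent.S0376.result] at h3'' a4
  obtain rfl : e'' = 5 := by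
    have := Nat.le_of_dvd (by norm_num) h2''
    interval_cases e'' <;> omega
  obtain rfl : e = 11 := by
    have := Nat.le_of_dvd (by norm_num) a1
    have : e ≤ 11 := by omega
    interval_cases e <;> omega
  have a5 : n ∣ 40320 := Nat.dvd_of_mul_dvd_mul_right (by norm_num : 0 < 23 * 11) (by rw [h3]; exact a4)
  have a6 := of_decide_eq_true (of_allLT (n := 1754) (f := fun k => decide ((23 * k + 1) ∣ 40320 →
    k % 11 = 0 ∨ k % 11 = 4 → k = 0 ∨ k = 1753)) (by decide +kernel) (k := n / 23)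
    (by have := Nat.le_of_dvd (by norm_num) a5; omega)) (by rwa [show 23 * (n / 23) + 1 = n by omega]) (by
      rcases (Nat.dvd_prime Nat.prime_five).1 (Nat.dvd_of_mul_dvd_mul_left (by norm_num) a3) with rfl | rfl <;> omega)
  omega

theorem a_fix : ea ∈ stabilizer M24 (none : GolayPt) := ((pm_rp isM_q23).pt_eq_iff (x := 23) (y := 23)
  (by norm_num) (by norm_num)).2 (by decide +kernel)
theorem b_fix : eb ∈ stabilizer M24 (none : GolayPt) := ((pm_rp isM_qb).pt_eq_iff (x := 23) (y := 23)
  (by norm_num) (by norm_num)).2 (by decide +kernel)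

theorem F_le : closure {ea, eb} ≤ stabilizer M24 (none : GolayPt) := (closure_le _).2 (by
  rintro _ (rfl | rfl); exacts [a_fix, b_fix])

theorem card_F : Nat.card (closure {ea, eb}) = 253 :=
  (card_over (subset_closure (by simp)) (subset_closure (by simp)) F_le).resolve_right fun h => by
    have := card_le_of_le ((closure_le (normalizer (zpowers ea : Set M24)) (k := {ea, eb})).2 (by
      rintro _ (rfl | rfl); exacts [le_normalizer (mem_zpowers _), b_norm]))
    rw [h, card_Na] at this
    omega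

theorem coatom_F : IsCoatom ((closure {ea, eb}).subgroupOf (stabilizer M24 (none : GolayPt))) := by
  have h1 : Nat.card ((closure {ea, eb}).subgroupOf (stabilizer M24 (none : GolayPt))) = 253 := by
    rw [Nat.card_congr (subgroupOfEquivOfLe F_le).toEquiv, card_F]
  refine ⟨fun h => by rw [h, card_top, Agent.S0376.result] at h1; omega, fun K hK => ?_⟩
  have := card_over (K := K.map (Subgroup.subtype _)) ⟨⟨_, a_fix⟩, hK.le (subset_closure (by simp)), rfl⟩
    ⟨⟨_, b_fix⟩, hK.le (subset_closure (by simp)), rfl⟩ (map_subtype_le _)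
  rw [card_map_of_injective (subtype_injective _)] at this
  exact eq_top_of_card_eq _ ((this.resolve_left fun h => hK.ne (eq_of_le_of_card_ge hK.le (by omega))).trans
    (Agent.S0376.result _).symm)

theorem card_over' {K : Subgroup M24} (h : closure {ea, eb, ec} ≤ K) : Nat.card K = 6072 ∨ K = ⊤ := by
  have h1 : ∀ x ∈ ({ea, eb, ec} : Set M24), x ∈ K := fun x hx => h (subset_closure hx)
  have h2 := card_tr (H := K) (a := pt 23) fun p => cover (gens := [q23, qc]) (m := 16777215) (by
    simp only [List.mem_cons, List.not_mem_nil, or_false, forall_eq_or_imp, forall_eq]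
    exact ⟨⟨_, h1 ea (by simp)⟩, _, h1 ec (by simp)⟩) (by norm_num) (by decide +kernel)
    (by rw [ofMask_full]; exact Finset.mem_univ _)
  rcases card_over (K := K ⊓ stabilizer M24 (pt 23)) ⟨h1 ea (by simp), a_fix⟩ ⟨h1 eb (by simp), b_fix⟩ inf_le_right
    with e | e <;> rw [e] at h2
  exacts [Or.inl h2.symm, Or.inr (eq_top_of_card_eq _ (h2.symm.trans card_M24.symm))]

/-- determinant of two points of the projective line -/
noncomputable def dt (a b : ℕ) : ℕ :=
  Bool.rec (Bool.rec (Bool.rec (Nat.sub (Nat.add a 23) b) 22 (Nat.beq b 23)) 1 (Nat.beq a 23)) 0 (Nat.beq a b)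
/-- orientation of a triple of points -/
noncomputable def ori (a b c : ℕ) : Bool := tb 340830 (Nat.mod (Nat.mul (Nat.mul (dt a b) (dt b c)) (dt c a)) 23)

/-- the orientation preserving elements -/
def Ori : Subgroup M24 where
  carrier := {g | ∀ a b c : GolayPt, ori (ix (g • a)) (ix (g • b)) (ix (g • c)) = ori (ix a) (ix b) (ix c)}
  one_mem' a b c := by simp
  mul_mem' hg hk a b c := by simp only [mul_smul]; rw [hg, hk]
  inv_mem' {g} hg a b c := by rw [← hg]; simp

theorem el_mem_Ori {q : ℕ} (hq : isM q = true) : el q hq ∈ Ori ↔ (allLT 24 fun a => allLT 24 fun b => allLT 24 fun c =>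
    eqB (ori (ap q a) (ap q b) (ap q c)) (ori a b c)) = true := by
  have h : ∀ p, ix (el q hq • p) = ap q (ix p) := fun p => (pm_rp hq p).symm
  simp only [allLT_iff, eqB_iff, ← Bool.eq_iff_iff]
  refine ⟨fun H a ha b hb c hc => ?_, fun H a b c => ?_⟩
  · simpa only [h, ix_pt, ha, hb, hc] using H (pt a) (pt b) (pt c)
  · simpa only [h] using H _ (ix_lt a) _ (ix_lt b) _ (ix_lt c)

theorem L_ne : closure {ea, eb, ec} ≠ ⊤ := fun h => by
  have h1 : closure {ea, eb, ec} ≤ Ori := (closure_le _).2 (by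
    rintro _ (rfl | rfl | rfl) <;> exact (el_mem_Ori _).2 (by decide +kernel))
  exact absurd ((el_mem_Ori isM_q2a).1 (h1 (h.ge (mem_top _)))) (by decide +kernel)

theorem card_L : Nat.card (closure {ea, eb, ec}) = 6072 := (card_over' le_rfl).resolve_right L_ne

theorem coatom_L : IsCoatom (closure {ea, eb, ec}) := ⟨L_ne, fun K hK => (card_over' hK.le).resolve_left
  fun h => hK.ne (eq_of_le_of_card_ge hK.le (by rw [h, card_L]))⟩

theorem closure_eq (s : Set M24) (t : Set P24) (h : M24.subtype '' s = t ∪ {pm qb}) :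
    closure (t ∪ {g | ∃ u : (ZMod 23)ˣ, IsSquare u ∧ g = Equiv.optionCongr (Units.mulLeft u)}) =
      (closure s).map M24.subtype := by
  rw [MonoidHom.map_closure, h]
  refine le_antisymm ((closure_le _).2 (Set.union_subset (fun g hg => subset_closure (Or.inl hg)) ?_))
    (closure_mono (Set.union_subset_union_right _ ?_))
  · rintro _ ⟨u, hu, rfl⟩
    obtain ⟨k, e⟩ := sq_mem hu
    change mu u ∈ _
    exact e ▸ pow_mem (Subgroup.subset_closure (by simp)) k
  · rintro _ rfl
    exact ⟨u2, ⟨⟨5, 14, rfl, rfl⟩, Units.ext rfl⟩, e_b⟩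

end CfsgLib.MSub
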