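import Mathlib
import Cfsg.Agent.Lib.MSub.Base

/-!
`M22` has no subgroup of order 7920 or 2112.
-/

set_option autoImplicit false

namespace CfsgLib.MSub

open Cfsg CfsgLib.M24E CfsgLib.Golay CfsgLib.SubA8 Subgroup MulAction
open scoped Pointwise

theorem not_2112 (K : Subgroup M24) : Nat.card K ≠ 2112 := fun h => by
  have := Fact.mk (by norm_num : Nat.Prime 11)
  obtain ⟨x, hx⟩ := exists_prime_orderOf_dvd_card' (G := K) 11 (by rw [h]; norm_num)
  obtain ⟨n, e, h1, h2, h3, -⟩ := norm_form (subtype_injective K) (Or.inl rfl) hx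
  have := Nat.le_of_dvd (by norm_num) h2
  rw [h] at h3
  interval_cases e <;> omega

/-- a word in `x` and `g` -/
def wd (x g : P24) (l : List ℕ) : P24 := l.foldr (fun i r => x ^ i * (g * r)) 1

noncomputable def wdF (ξ φ : ℕ → ℕ) (l : List ℕ) : ℕ → ℕ :=
  List.rec (fun t => t) (fun i _ ψ t => itF ξ i (φ (ψ t))) l

theorem rp_wd {ξ φ : ℕ → ℕ} {x g : P24} (hx : Rp ξ x) (hg : Rp φ g) (l : List ℕ) : Rp (wdF ξ φ l) (wd x g l) := by
  induction l with
  | nil => exact Rp.one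
  | cons i l ih => exact (hx.pow i).mul (hg.mul ih)

theorem wd_mem {H : Subgroup P24} {x g : P24} (hx : x ∈ H) (hg : g ∈ H) (l : List ℕ) : wd x g l ∈ H := by
  induction l with
  | nil => exact one_mem H
  | cons i l ih => exact mul_mem (pow_mem hx i) (mul_mem hg ih)

def wds : List (List ℕ) :=
  [[0, 2, 2], [1, 4, 7], [1, 7, 6], [5], [1, 10, 4], [3, 10, 6], [3, 5, 10], [1, 2, 9], [1, 4]]

theorem card_surv : Nat.card {g : P24 // g ∈ M24 ∧ ((∀ p ∈ ofMask 8455169, g p = p) ∧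
    ∀ l ∈ wds, wd (pm q11) g l ^ 7 = 1 → wd (pm q11) g l = 1)} = 11 := by
  have hB : chkB 0x25507a08726c5c534d2b659e1802ea 0x9ad3541c32b5e740135a2d978c882 = true := by decide +kernel
  rw [card_of_search hB (sound_okFix (chkB_lt hB) fun _ _ h => h.1) (t := pk fun φ => and (ptsFix φ 8455169)
    (allL wds fun l => pk (fun ψ => or (not (powId ψ 7)) (isId ψ)) (wdF (ap q11) φ l))) fun g _ φ hφ => ?_]
  · decide +kernel
  · rw [pk_eq, Bool.and_eq_true, hφ.mk.ptsFix_iff, allL_iff]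
    refine and_congr_right fun _ => forall₂_congr fun l _ => ?_
    have h := (rp_wd (pm_rp isM_q11) hφ.mk l).mk
    rw [pk_eq, ← h.powId_iff, ← h.isId_iff]
    cases powId _ 7 <;> simp

theorem card_le_of_q11 {K : Subgroup M24} (hx : el q11 isM_q11 ∈ K) (hf : ∀ g ∈ K, ∀ p ∈ ofMask 8389632, g • p = p)
    (h7 : ¬ 7 ∣ Nat.card K) : Nat.card K ≤ 24 * (24 * 11) := by
  have h1 : ∀ (K : Subgroup M24) a, (orb K a).card ≤ 24 := fun K a => card_golayPt ▸ Finset.card_le_univ _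
  rw [← card_orb K (pt 0), ← card_orb (K ⊓ _) (pt 16), ← card_surv]
  refine Nat.mul_le_mul (h1 ..) (Nat.mul_le_mul (h1 ..) (Nat.card_le_card_of_injective
    (fun g => ⟨g.1.1, g.1.2, fun p hp => ?_, fun l _ h => ?_⟩)
    fun a b h => Subtype.ext (Subtype.ext (Subtype.mk.inj h))))
  · have : ∀ p ∈ ofMask 8455169, p ∈ ofMask 8389632 ∨ p = pt 0 ∨ p = pt 16 := by decide +kernel
    rcases this p hp with h | rfl | rfl
    exacts [hf _ g.2.1.1 p h, g.2.1.2, g.2.2]
  · obtain ⟨w, hw, e⟩ := wd_mem (H := K.map M24.subtype) ⟨_, hx, rfl⟩ ⟨_, g.2.1.1, rfl⟩ l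
    have := Fact.mk (by norm_num : Nat.Prime 7)
    by_contra h1
    refine h7 (orderOf_eq_prime h h1 ▸ ?_)
    exact (orderOf_injective _ (subtype_injective M24) w).symm.trans (congrArg orderOf e) ▸ K.orderOf_dvd_natCard hw

theorem not_7920 {K : Subgroup M24} {p q : GolayPt} (hpq : p ≠ q) (hp : ∀ g ∈ K, g • p = p) (hq : ∀ g ∈ K, g • q = q) :
    Nat.card K ≠ 7920 := fun h => by
  have := Fact.mk (by norm_num : Nat.Prime 11)
  obtain ⟨x, hxK, hx⟩ := exists_ord K this.out (by rw [h]; norm_num)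
  obtain ⟨g, e⟩ := conj_zp hx ord_q11 (by rw [card_M24]; norm_num)
  have hc : Nat.card (K.map (MulAut.conj g).toMonoidHom) = 7920 := by
    rw [card_map_of_injective (MulAut.conj g).injective, h]
  have h1 : el q11 isM_q11 ∈ K.map (MulAut.conj g).toMonoidHom :=
    (zpowers_le.2 (mem_map_of_mem _ hxK)) (e.ge (mem_zpowers _))
  have h2 : ∀ r : GolayPt, (∀ k ∈ K, k • r = r) → ∀ k ∈ K.map (MulAut.conj g).toMonoidHom, k • g • r = g • r := by
    rintro r hr _ ⟨k, hk, rfl⟩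
    simp [mul_smul, hr k hk]
  have h3 : ({g • p, g • q} : Finset _) = ofMask 8389632 := by
    have h4 := fixS_pm isM_q11 (m := 8389632) (by decide +kernel)
    refine Finset.eq_of_subset_of_card_le (h4 ▸ Finset.insert_subset (mem_fixS.2 (h2 p hp _ h1))
      (Finset.singleton_subset_iff.2 (mem_fixS.2 (h2 q hq _ h1)))) ?_
    rw [Finset.card_pair ((smul_left_cancel_iff g).not.2 hpq), ← h4]
    exact (fix11 ord_q11).le
  have := card_le_of_q11 h1 (fun k hk r hr => by
    rcases Finset.mem_insert.1 (h3.ge hr) with rfl | hr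
    exacts [h2 p hp k hk, Finset.mem_singleton.1 hr ▸ h2 q hq k hk]) (by rw [hc]; norm_num)
  omega

end CfsgLib.MSub
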